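import Mathlib
import Cfsg.Agent.H584.NC.Basic
import Cfsg.Agent.H688.TransAut
import Cfsg.Agent.Lib.FieldAutCard

/-!
# The outer automorphism group of `PSL(2, q)`, `q = r ^ (2 ^ a)` or `q` prime, is a 2-group
-/

set_option autoImplicit false

namespace Cfsg.Agent.H161.L2Out

open Cfsg.Agent.H584.NC Cfsg.Agent.H688.TransAut

universe u

/-- Every automorphism of a group in `IsL2` has a power `2 ^ k` which is inner. -/
theorem IsL2.out {S : Type u} [Group S] [Finite S] (h : IsL2 S) (α : MulAut S) :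
    ∃ (k : ℕ) (s : S), α ^ (2 ^ k) = MulAut.conj s := by
  obtain ⟨F, _, _, hF, ⟨e⟩⟩ := h
  have hcard : ∃ a : ℕ, Nat.card (F ≃+* F) = 2 ^ a := by
    rcases hF with ⟨r, a, hr, -, -, hq⟩ | ⟨hp, -⟩
    · have : Fact r.Prime := ⟨hr⟩
      exact ⟨a, Lib.FieldAutCard.card_ringAut (Nat.one_le_two_pow) hq⟩
    · have : Fact (Fintype.card F).Prime := ⟨hp⟩
      exact ⟨0, by rw [pow_zero]; exact Lib.FieldAutCard.card_ringAut le_rfl (pow_one _).symm⟩
  obtain ⟨a, ha⟩ := hcard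
  obtain ⟨γ, hγ⟩ := exists_gal (F := F)
  have h1 : γ ((MulAut.congr e α) ^ 2 ^ a) = 1 := by
    rw [map_pow, ← ha, pow_card_eq_one']
  obtain ⟨A, hA⟩ := hγ _ h1
  obtain ⟨g, hg⟩ := lift_cj_sq A
  refine ⟨a + 1, e.symm g, ?_⟩
  have h2 : (MulAut.congr e α) ^ 2 ^ (a + 1) = MulAut.conj g := by
    rw [pow_succ, pow_mul, hA, hg]
  apply (MulAut.congr e).injective
  rw [map_pow, h2]
  apply MulEquiv.ext
  intro x
  show MulAut.conj g x = e (MulAut.conj (e.symm g) (e.symm x))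
  simp [MulAut.conj_apply]

end Cfsg.Agent.H161.L2Out
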